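import Mathlib
import Cfsg.Prelude.Def_SubgroupEmbedding
import Cfsg.Agent.GSz.Base
import Cfsg.Agent.GT.TransferFrobenius

/-! Extremely closed abelian `p`-subgroups: group-theoretic preliminaries. -/

set_option autoImplicit false

namespace Cfsg.Agent.XC

open Cfsg Cfsg.Agent.GT Cfsg.Agent.GT.Tr Cfsg.Agent.GSz Subgroup

variable {G : Type*} [Group G] {p : ℕ}

/-- The conjugate `g H g⁻¹`. -/
abbrev cj (g : G) (H : Subgroup G) : Subgroup G := H.map (MulAut.conj g).toMonoidHom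

/-- The normal closure of `H` in `X`. -/
def ncl (X H : Subgroup G) : Subgroup G := ⨆ c : X, cj c H

theorem cj_le_ncl {X H : Subgroup G} {c : G} (hc : c ∈ X) : cj c H ≤ ncl X H :=
  le_iSup (fun c : X => cj (c : G) H) ⟨c, hc⟩

theorem le_ncl (X H : Subgroup G) : H ≤ ncl X H :=
  (map_conj_one H).ge.trans (cj_le_ncl (one_mem X))

theorem cj_le {X H : Subgroup G} (h : H ≤ X) {c : G} (hc : c ∈ X) : cj c H ≤ X :=
  map_conj_le_iff.2 fun _ ha => mul_mem (mul_mem hc (h ha)) (inv_mem hc)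

theorem ncl_le {X H : Subgroup G} (h : H ≤ X) : ncl X H ≤ X := iSup_le fun c => cj_le h c.2

theorem le_normalizer_ncl [Finite G] (X H : Subgroup G) : X ≤ normalizer (ncl X H : Set G) :=
  fun g hg => mem_normalizer_of_conj_mem (map_conj_le_iff.1 (by
    rw [ncl, Subgroup.map_iSup]
    exact iSup_le fun c => (map_conj_map_conj H c g).le.trans (cj_le_ncl (mul_mem hg c.2))))

/-- An extremely closed abelian `p`-subgroup. -/
structure EC (p : ℕ) (H : Subgroup G) : Prop where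
  pg : IsPGroup p H
  comm : ∀ a ∈ H, ∀ b ∈ H, a * b = b * a
  sn : ∀ g, (H ⊔ cj g H) ⊓ normalizer (H : Set G) ≤ H

theorem EC.subgroupOf {H X : Subgroup G} (h : EC p H) (hX : H ≤ X) : EC p (H.subgroupOf X) := by
  refine ⟨h.pg.comap_subtype, fun a ha b hb => Subtype.ext (h.comm a ha b hb), fun g a ha => ?_⟩
  rw [← subgroupOf_normalizer_eq hX] at ha
  refine h.sn g ⟨(show H.subgroupOf X ⊔ cj g (H.subgroupOf X) ≤ (H ⊔ cj g H).subgroupOf X from
    sup_le (fun b hb => mem_sup_left hb) (map_conj_le_iff.2 fun b hb =>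
      mem_sup_right (conj_mem_map_conj.2 hb))) ha.1, ha.2⟩

variable [Finite G] [Fact p.Prime] {H X : Subgroup G}

theorem sn_syl (hp : IsPGroup p H) (hX : H ≤ X) (h : X ⊓ normalizer (H : Set G) ≤ H) :
    ¬ p ∣ H.relIndex X := by
  obtain ⟨S, h1, h2, h3, h4⟩ := exists_sylowIn_ge hp hX
  rcases h1.eq_or_lt with e | e
  · rwa [e]
  · exact ((Tr.lt_inf_normalizer h3 e).not_ge ((inf_le_inf_right _ h2).trans h)).elim

namespace EC

theorem nc (h : EC p H) (hX : H ≤ X) (hs : X ⊓ normalizer (H : Set G) ≤ H) :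
    HasNormalPComplement p X := by
  refine hasNormalPComplement_of_normalizer_le_centralizer (sylowOfRel h.pg (sn_syl h.pg hX hs))
    fun g hg => mem_centralizer_iff.2 fun a ha => Subtype.ext (h.comm _ ha _ (hs ⟨g.2, ?_⟩))
  rwa [coe_sylowOfRel, ← subgroupOf_normalizer_eq hX] at hg

theorem split (h : EC p H) (g : G) : ∃ l ∈ H ⊔ cj g H, (orderOf l).Coprime p ∧
    ∃ n ∈ normalizer (H : Set G), g = l * n := by
  have h1 := sn_syl h.pg le_sup_left (h.sn g)
  obtain ⟨k, hk, hk'⟩ := exists_conj_le_sylowIn h.pg h1 (isPGroup_map_conj h.pg g) le_sup_right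
  obtain ⟨y, hy, l, hl, hl', rfl⟩ := decomp (h.nc le_sup_left (h.sn g)) h.pg h1 hk
  have h2 : y * (l * g) ∈ normalizer (H : Set G) := mem_normalizer_of_conj_mem fun a ha => by
    simpa only [mul_inv_rev, mul_assoc] using hk' _ (conj_mem_map_conj.2 ha)
  exact ⟨l⁻¹, inv_mem hl, by rwa [orderOf_inv], l * g,
    (Subgroup.mul_mem_cancel_left _ (le_normalizer hy)).1 h2, by group⟩

theorem map (h : EC p H) {K : Type*} [Group K] {f : G →* K} (hf : Function.Surjective f) :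
    EC p (H.map f) := by
  refine ⟨h.pg.map f, ?_, fun g => ?_⟩
  · rintro _ ⟨a, ha, rfl⟩ _ ⟨b, hb, rfl⟩
    rw [← map_mul, h.comm a ha b hb, map_mul]
  obtain ⟨g, rfl⟩ := hf g
  rintro k ⟨hk', hn⟩
  obtain ⟨k, hk, rfl⟩ : k ∈ (H ⊔ cj g H).map f := by
    rw [Subgroup.map_sup]
    refine sup_le_sup_left (map_conj_le_iff.2 ?_) _ hk'
    rintro _ ⟨a, ha, rfl⟩
    exact ⟨_, conj_mem_map_conj.2 ha, by simp⟩
  have h1 : H ≤ (H ⊔ cj g H) ⊓ (H.map f).comap f := le_inf le_sup_left (le_comap_map f H)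
  obtain ⟨t, ht, ht'⟩ := exists_conj_le_sylowIn h.pg
    (sn_syl h.pg h1 ((inf_le_inf_right _ inf_le_left).trans (h.sn g))) (isPGroup_map_conj h.pg k)
    (le_inf (cj_le le_sup_left hk) (map_conj_le_iff.2 fun a ha => by
      rw [mem_comap, map_mul, map_mul, map_inv]
      exact conj_mem_of_mem_normalizer hn (mem_map_of_mem f ha)))
  have h2 : t * k ∈ H := h.sn g ⟨mul_mem (mem_inf.1 ht).1 hk, mem_normalizer_of_conj_mem
    fun a ha => by simpa only [mul_inv_rev, mul_assoc] using ht' _ (conj_mem_map_conj.2 ha)⟩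
  have h3 := mem_map_of_mem f h2
  rw [map_mul] at h3
  exact (Subgroup.mul_mem_cancel_left _ (mem_comap.1 (mem_inf.1 ht).2)).1 h3

theorem mem_pair (h : EC p H) (hX : H ≤ X) (hs : X ⊓ normalizer (H : Set G) ≤ H) {s : G}
    (hsX : s ∈ X) (hs' : (orderOf s).Coprime p) : s ∈ H ⊔ cj s H := by
  obtain ⟨l, hl, hl', n, hn, e⟩ := h.split s
  have hlX := sup_le hX (cj_le hX hsX) hl
  have e' : n = l⁻¹ * s := by rw [e]; group
  have h1 := eq_one_of_coprime_of_isPGroup h.pg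
    (hs (mem_inf.2 ⟨e' ▸ mul_mem (inv_mem hlX) hsX, hn⟩))
    (e' ▸ mul_cop (h.nc hX hs) (inv_mem hlX) hsX (by rwa [orderOf_inv]) hs')
  rw [h1, mul_one] at e
  exact e ▸ e ▸ hl

theorem coset (h : EC p H) (hX : H ≤ X) (hs : X ⊓ normalizer (H : Set G) ≤ H) {u d : G}
    (hu : u ∈ H) (hd : d ∈ X) (hdu : (orderOf (d * u⁻¹)).Coprime p) :
    ∃ k, (orderOf k).Coprime p ∧ ∃ s ∈ X, (orderOf s).Coprime p ∧ s * u = u * s ∧
      d = k * (u * s) * k⁻¹ := by
  have hK := h.nc hX hs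
  have hi := sn_syl h.pg hX hs
  obtain ⟨a, ha, b, hb, ⟨j, ha'⟩, hb', e⟩ := exists_pPart_mul_pPrimePart (p := p) d
  have haX := zpowers_le.2 hd ha
  have hbX := zpowers_le.2 hd hb
  obtain ⟨k, hk, hk'⟩ := exists_conj_le_sylowIn h.pg hi (T := zpowers a)
    (IsPGroup.of_card (by rw [Nat.card_zpowers, ha'])) (zpowers_le.2 haX)
  obtain ⟨y, hy, l, hl, hl', rfl⟩ := decomp hK h.pg hi hk
  have h1 : l * a * l⁻¹ ∈ H := by
    simpa only [mul_inv_rev, mul_assoc, inv_mul_cancel_left, inv_mul_cancel, mul_one] using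
      inv_conj_mem_of_mem_normalizer (le_normalizer hy) (hk' a (mem_zpowers a))
  have hc : ∀ g t : G, (orderOf t).Coprime p → (orderOf (g * t⁻¹ * g⁻¹)).Coprime p :=
    fun g t ht => by rwa [← MulAut.conj_apply, MulEquiv.orderOf_eq, orderOf_inv]
  have hcX : ∀ g ∈ X, ∀ t ∈ X, g * t⁻¹ * g⁻¹ ∈ X := fun g hg t ht =>
    mul_mem (mul_mem hg (inv_mem ht)) (inv_mem hg)
  have h2 : l * a * l⁻¹ * u⁻¹ = 1 := by
    refine eq_one_of_coprime_of_isPGroup h.pg (mul_mem h1 (inv_mem hu)) ?_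
    have := mul_cop hK (mul_mem (mul_mem hl (hcX a haX l hl)) (hcX a haX b hbX))
      (mul_mem hd (inv_mem (hX hu))) (mul_cop hK (mul_mem hl (hcX a haX l hl)) (hcX a haX b hbX)
        (mul_cop hK hl (hcX a haX l hl) hl' (hc a l hl')) (hc a b hb')) hdu
    convert this using 2
    rw [e]; group
  have hab : Commute a b := by
    obtain ⟨i, rfl⟩ := ha
    obtain ⟨i', rfl⟩ := hb
    exact Commute.zpow_zpow_self d i i'
  rw [mul_inv_eq_one] at h2
  refine ⟨l⁻¹, by rwa [orderOf_inv], l * b * l⁻¹, mul_mem (mul_mem hl hbX) (inv_mem hl),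
    by rwa [← MulAut.conj_apply, MulEquiv.orderOf_eq], ?_, by rw [← h2, e]; group⟩
  rw [← h2]
  calc _ = l * (b * a) * l⁻¹ := by group
    _ = _ := by rw [← hab.eq]; group

theorem mem_core (h : EC p H) (hX : H ≤ X) (hs : X ⊓ normalizer (H : Set G) ≤ H) {s : G}
    (hsX : s ∈ X) (hs' : (orderOf s).Coprime p) : s ∈ pPrimeCoreOf p X :=
  ⟨⟨s, hsX⟩, by
    rw [(h.nc hX hs).pPrimeCore_eq_pResidual]
    exact (h.nc hX hs).mem_pResidual_iff.2 (by rwa [orderOf_mk]), rfl⟩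

/-- The product of an element of `H` and a conjugate of an element of `H`. -/
theorem prod (h : EC p H) (g : G) : ∃ n ∈ normalizer (H : Set G), ∀ x ∈ H, ∀ y ∈ H,
    ∃ k, (orderOf k).Coprime p ∧ ∃ s ∈ ncl (centralizer {x * (n * y * n⁻¹)}) H,
      (orderOf s).Coprime p ∧ x * (g * y * g⁻¹) = k * (x * (n * y * n⁻¹) * s) * k⁻¹ := by
  obtain ⟨l, hl, hl', n, hn, e⟩ := h.split g
  refine ⟨n, hn, fun x hx y hy => ?_⟩
  have hy' := conj_mem_of_mem_normalizer hn hy
  have hu := mul_mem hx hy'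
  obtain ⟨k, hk, s, hs, hs', h1, h2⟩ := h.coset le_sup_left (h.sn g) hu
    (mul_mem (mem_sup_left hx) (mem_sup_right (conj_mem_map_conj.2 hy))) (by
      have := mul_cop (h.nc le_sup_left (h.sn g)) hl (mul_mem (mul_mem (mem_sup_left hy')
        (inv_mem hl)) (inv_mem (mem_sup_left hy'))) hl'
        (by rwa [← MulAut.conj_apply, MulEquiv.orderOf_eq, orderOf_inv])
      rw [← (MulAut.conj x).orderOf_eq, MulAut.conj_apply] at this
      convert this using 2
      rw [e]; group)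
  have h3 := mem_centralizer_singleton_iff.2 h1
  exact ⟨k, hk, s, sup_le (le_ncl _ _) (cj_le_ncl h3) (h.mem_pair (X := (H ⊔ cj g H) ⊓
    centralizer {x * (n * y * n⁻¹)}) (le_inf le_sup_left fun a ha =>
      mem_centralizer_singleton_iff.2 (h.comm a ha _ hu))
    ((inf_le_inf_right _ inf_le_left).trans (h.sn g)) ⟨hs, h3⟩ hs'), hs', h2⟩

theorem normalClosure_ncl (h : EC p H) (X : Subgroup G) :
    normalClosure (H.subgroupOf (ncl X H) : Set (ncl X H)) = ⊤ := by
  have : ncl X H ≤ (normalClosure (H.subgroupOf (ncl X H) : Set (ncl X H))).map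
      (ncl X H).subtype := iSup_le fun c => map_conj_le_iff.2 fun a ha => by
    obtain ⟨l, hl, -, n, hn, e⟩ := h.split c
    have h1 := conj_mem_of_mem_normalizer hn ha
    refine ⟨_, normalClosure_normal.conj_mem ⟨_, le_ncl X H h1⟩ (subset_normalClosure h1)
      ⟨l, sup_le (le_ncl X H) (cj_le_ncl c.2) hl⟩, ?_⟩
    change l * (n * a * n⁻¹) * l⁻¹ = _
    rw [e]; group
  refine eq_top_iff.2 fun a _ => ?_
  obtain ⟨b, hb, e⟩ := this a.2
  exact (Subtype.ext e : b = a) ▸ hb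

/-- If no three conjugates generate `G`, the conclusion follows from the inductive hypothesis. -/
theorem of_triple (h : EC p H) (ht : normalClosure (H : Set G) = ⊤)
    (ih : ∀ a b, ncl (H ⊔ cj a H ⊔ cj b H) H ⊓ normalizer (H : Set G) ≤ H) :
    normalizer (H : Set G) ≤ H := by
  have key : ∀ g l : G, l ∈ H ⊔ cj l H → g * l * g⁻¹ ∈ cj g H ⊔ cj (g * l) H := fun g l hl => by
    rw [cj, cj, ← map_conj_map_conj, ← Subgroup.map_sup]
    exact conj_mem_map_conj.2 hl
  let L : Subgroup G :=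
    { carrier := {l | (orderOf l).Coprime p ∧ l ∈ H ⊔ cj l H}
      one_mem' := ⟨by simp, one_mem _⟩
      inv_mem' := fun {l} ⟨h1, h2⟩ => ⟨by rwa [orderOf_inv], by
        have := key l⁻¹ l h2
        rwa [inv_mul_cancel, one_mul, cj, cj, map_conj_one, sup_comm, inv_inv, ← inv_mem_iff] at this⟩
      mul_mem' := fun {a b} ⟨h1, h2⟩ ⟨h3, h4⟩ => by
        have ha : a ∈ H ⊔ cj a H ⊔ cj b H := mem_sup_left h2
        have hb : b ∈ H ⊔ cj a H ⊔ cj b H := sup_le_sup_right (le_sup_left (a := H)) _ h4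
        have ha' := sup_le (le_ncl _ H) (cj_le_ncl ha) h2
        have hb' := sup_le (le_ncl _ H) (cj_le_ncl hb) h4
        have h5 := mul_cop (h.nc (le_ncl _ _) (ih a b)) ha' hb' h1 h3
        exact ⟨h5, h.mem_pair (le_ncl _ _) (ih a b) (mul_mem ha' hb') h5⟩ }
  have hcj : ∀ l, ∀ n ∈ normalizer (H : Set G), cj (l * n) H = cj l H := fun l n hn => by
    rw [cj, ← map_conj_map_conj, map_conj_eq_of_mem hn]
  have hHL : H ≤ normalizer (L : Set G) := fun y hy => mem_normalizer_of_conj_mem fun l hl =>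
    ⟨by rw [← MulAut.conj_apply, MulEquiv.orderOf_eq]; exact hl.1, by
      have := key y l hl.2
      rwa [cj, map_conj_eq_of_mem (le_normalizer hy), ← hcj _ _ (inv_mem (le_normalizer hy))]
        at this⟩
  have htop : ⊤ ≤ H ⊔ L := by
    rw [← ht, normalClosure, closure_le]
    intro a ha
    obtain ⟨b, hb, hc⟩ := Group.mem_conjugatesOfSet_iff.1 ha
    obtain ⟨g, rfl⟩ := isConj_iff.1 hc
    obtain ⟨l, hl, hl', n, hn, rfl⟩ := h.split g
    have h1 : l ∈ H ⊔ L := mem_sup_right ⟨hl', hcj l n hn ▸ hl⟩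
    have := mul_mem (mul_mem h1 (mem_sup_left (conj_mem_of_mem_normalizer hn hb))) (inv_mem h1)
    simpa only [mul_inv_rev, mul_assoc, SetLike.mem_coe] using this
  intro n hn
  obtain ⟨y, hy, l, hl, rfl⟩ := (PG.mem_sup_of_le_normalizer' hHL).1 (htop (mem_top n))
  have h1 := hl.2
  rw [cj, map_conj_eq_of_mem ((Subgroup.mul_mem_cancel_left _ (le_normalizer hy)).1 hn),
    sup_idem] at h1
  exact mul_mem hy h1

end EC

end Cfsg.Agent.XC
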