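import Mathlib
import Cfsg.Agent.XC.Base
import Cfsg.Agent.GSz.Col
import Cfsg.Agent.Blk.PBColumn2
import Cfsg.Agent.Blk.BlockOrth
import Cfsg.Agent.Ch.GlaubCyclic

/-! Character-theoretic lemmas for extremely closed subgroups. -/

set_option autoImplicit false

namespace Cfsg.Agent.XC

open Cfsg Cfsg.Agent.GT Cfsg.Agent.GT.Tr Cfsg.Agent.GSz Cfsg.Agent.Ch Cfsg.Agent.Blk.PB
  Cfsg.Agent.Blk.PC Subgroup Finset Module

variable {G : Type*} [Group G] {p : ℕ} {M : Ideal AlgInt}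

theorem apply_mul_core [Finite G] (hM : IsPModular p M) (hp : p.Prime) {u s : G}
    (hu : ∃ k : ℕ, orderOf u = p ^ k) (hs : s ∈ pPrimeCoreOf p (centralizer {u}))
    {χ : IrrCharacter G} (hχ : χ ∈ pb M G) : (χ : G → ℂ) (u * s) = (χ : G → ℂ) u := by
  have := Fintype.ofFinite (centralizer ({u} : Set G))
  obtain ⟨s, hs, rfl⟩ := hs
  have hC : ∀ g, g ∈ centralizer ({u} : Set G) ↔ g * u = u * g := fun _ =>
    mem_centralizer_singleton_iff
  have h1 := apply_mul_eq_sum_col hM hu hC (mem_pb.1 hχ) (y := s) fun e =>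
    not_dvd_card_pPrimeCore hp (e.trans (orderOf_dvd_natCard _ hs))
  have h2 := apply_mul_eq_sum_col hM hu hC (mem_pb.1 hχ) (y := 1) (by simpa using hp.one_lt.ne')
  rw [OneMemClass.coe_one, mul_one] at h2
  rw [h2]
  exact h1.trans (sum_congr rfl fun ψ hψ => by
    rw [apply_eq_of_mem_charKer (pPrimeCore_le_charKer hM (mem_pb.1 hψ) hs)])

theorem card_le_lam [Finite G] [Fact p.Prime] (hM : IsPModular p M) {Q : Subgroup G}
    (hQ : IsPGroup p Q) : Nat.card Q ≤ lam M G := by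
  have := Fintype.ofFinite Q
  have hp : p.Prime := Fact.out
  have hm : ∀ χ : IrrCharacter G, ∃ m : ℕ, ∑ u : Q, (χ : G → ℂ) u = Nat.card Q * m := fun χ => by
    obtain ⟨m, hm⟩ := (χ.isCharacter.restrict Q).exists_nat_classInner IsCharacter.one
    rw [classInner_one_right, inv_mul_eq_iff_eq_mul₀ (natCard_ne_zero Q)] at hm
    exact ⟨m, hm⟩
  choose m hm using hm
  have h1 : (lam M G : ℂ) = (Nat.card Q * ∑ χ ∈ pb M G, charDegree (χ : G → ℂ) * m χ : ℕ) := by
    have h2 : ∑ u : Q, ∑ χ ∈ pb M G, (χ : G → ℂ) 1 * (χ : G → ℂ) u = lam M G := by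
      rw [sum_eq_single 1 (fun u _ hu => sum_mul_eq_zero_of_regular hM
        (by simpa using hp.one_lt.ne') ?_) (by simp), coe_lam, OneMemClass.coe_one]
      obtain ⟨k, hk⟩ := exists_pow_orderOf hQ u.2 (by simpa using hu)
      exact hk ▸ orderOf_pow_dvd k
    rw [← h2, sum_comm]
    push_cast
    rw [mul_sum]
    exact sum_congr rfl fun χ _ => by rw [← mul_sum, hm, χ.2.coe_charDegree]; ring
  refine Nat.le_of_dvd (Nat.pos_of_ne_zero fun h => ?_) ⟨_, by exact_mod_cast h1⟩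
  have h3 : (lam M G : ℂ) = (∑ χ ∈ pb M G, charDegree (χ : G → ℂ) ^ 2 : ℕ) := by
    rw [coe_lam]
    push_cast
    exact sum_congr rfl fun χ _ => by rw [χ.2.coe_charDegree, sq]
  have h4 := (sum_eq_zero_iff.1 ((Nat.cast_injective h3).symm.trans h)) _ (one_mem_pb hM)
  simp [charDegree_one] at h4

theorem three_mul_le [Fintype G] {χ : G → ℂ} (hχ : IsIrrCharacter G χ) (h1 : χ ≠ fun _ => 1)
    {H : Subgroup G} [Fintype H] {a b : G} (hab : H ⊔ cj a H ⊔ cj b H = ⊤) {m : ℕ}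
    (hm : ∑ u : H, χ u = Nat.card H * m) : 3 * m ≤ 2 * charDegree χ := by
  obtain ⟨ρ, hρ⟩ := hχ.isCharacter.exists_rep
  let W : G → Submodule ℂ (Fin (charDegree χ) → ℂ) := fun g =>
    Representation.invariants (ρ.comp ((MulAut.conj g).toMonoidHom.comp H.subtype))
  have hW : ∀ g, finrank ℂ (W g) = m := fun g => by
    have := classInner_character_one (ρ.comp ((MulAut.conj g).toMonoidHom.comp H.subtype))
    rw [classInner_one_right, sum_congr rfl (g := fun u : H => χ u) fun u _ => by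
      rw [← hχ.isClassFunction u g]; exact congrFun hρ _, hm, ← mul_assoc,
      inv_mul_cancel₀ (natCard_ne_zero H), one_mul] at this
    exact_mod_cast this.symm
  have h0 : finrank ℂ ρ.invariants = 0 := by
    have := classInner_character_one ρ
    rw [hρ, hχ.classInner_one h1] at this
    exact_mod_cast this.symm
  have h2 : W 1 ⊓ W a ⊓ W b ≤ ρ.invariants := fun v hv g => by
    let S : Subgroup G :=
      { carrier := {g | ρ g v = v}
        one_mem' := by simp
        mul_mem' := fun {x y} hx hy => by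
          change ρ (x * y) v = v
          rw [map_mul, Module.End.mul_apply, hy, hx]
        inv_mem' := fun {x} hx => by
          change ρ x⁻¹ v = v
          conv_lhs => rw [← show ρ x v = v from hx]
          rw [← Module.End.mul_apply, ← map_mul, inv_mul_cancel, map_one, Module.End.one_apply] }
    have h3 : ∀ c, v ∈ W c → cj c H ≤ S := fun c hc => map_conj_le_iff.2 fun x hx => hc ⟨x, hx⟩
    exact (hab.ge.trans (sup_le (sup_le ((map_conj_one H).ge.trans (h3 1 hv.1.1)) (h3 a hv.1.2))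
      (h3 b hv.2))) (mem_top g)
  have h3 := Submodule.finrank_mono h2
  have h4 := Submodule.finrank_sup_add_finrank_inf_eq (W 1) (W a)
  have h5 := Submodule.finrank_sup_add_finrank_inf_eq (W 1 ⊓ W a) (W b)
  have h6 := Submodule.finrank_le (W 1 ⊔ W a)
  have h7 := Submodule.finrank_le (W 1 ⊓ W a ⊔ W b)
  simp only [hW, finrank_fin_fun] at h4 h5 h6 h7
  omega

theorem apply_sq [Fintype G] (χ : IrrCharacter G) {x y : G} {c : ℂ}
    (h : ∀ g, (χ : G → ℂ) (x * (g * y * g⁻¹)) = c) :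
    (χ : G → ℂ) 1 * c = (χ : G → ℂ) x * (χ : G → ℂ) y := by
  have := Blk.irr_mul_sum_conj χ x y
  simp only [← χ.isClassFunction.mul_comm x, h, sum_const, card_univ, nsmul_eq_mul,
    ← Nat.card_eq_fintype_card] at this
  exact mul_left_cancel₀ (natCard_ne_zero G) (by rw [← this]; ring)

theorem glaub_top [Finite G] {O U : Subgroup G} [O.Normal] {x : G} (htop : O ⊔ zpowers x = ⊤)
    (hcop : (Nat.card O).Coprime (orderOf x)) (hodd : Odd (orderOf x))
    (hU : U ≤ O ⊓ centralizer {x}) (hn : O ⊓ centralizer {x} ≤ normalizer (U : Set G))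
    (h : ∀ g, ∃ s ∈ U, ∃ k, x * (g * x * g⁻¹) = k * (x * x * s) * k⁻¹) {c : G}
    (hc : c ∈ O ⊓ centralizer {x}) (hcU : c ∉ U) :
    ∃ K : Subgroup G, K.Normal ∧ x ∈ K ∧ c ∉ K := by
  have := Fintype.ofFinite G
  have := Fintype.ofFinite (O ⊓ centralizer {x} : Subgroup G)
  have hC : ∀ c, c ∈ O ⊓ centralizer {x} ↔ c ∈ O ∧ c * x = x * c := fun c => by
    rw [Subgroup.mem_inf, mem_centralizer_singleton_iff]
  have := normal_subgroupOf_of_le_normalizer hn
  obtain ⟨β, h1, h2⟩ := exists_irr_le_charKer_not_mem (U.subgroupOf (O ⊓ centralizer {x}))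
    (g := ⟨c, hc⟩) hcU
  obtain ⟨χ, a, ε, ha, hε, h3⟩ := Glb.exists_canExt_sign htop hcop hC β
  have hε0 : (ε : ℂ) ≠ 0 := by rcases hε with rfl | rfl <;> simp
  have h4 : a x = ε * β.1 1 := by simpa using h3 1
  have h5 := apply_sq ⟨a, ha.irrh⟩ (x := x) (y := x) (c := a x) fun g => by
    obtain ⟨s, hs, k, e⟩ := h g
    change a _ = _
    rw [e, ha.irrh.isClassFunction, ha.irrh.isClassFunction.mul_comm, h4,
      ← apply_eq_of_mem_charKer (h1 (show ⟨s, hU hs⟩ ∈ U.subgroupOf _ from hs)), ← h3]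
    refine ha.apply_mul_pow htop hcop hC (le_antisymm (zpowers_le.2 (mul_mem (mem_zpowers x)
      (mem_zpowers x))) (zpowers_le.2 ?_)) ⟨s, hU hs⟩
    rw [← sq]
    exact mem_zpowers_pow_iff.2 hodd.coprime_two_left
  have h6 : x ∈ charKer a := ha.irrh.mem_charKer.2
    (mul_right_cancel₀ (h4 ▸ mul_ne_zero hε0 β.2.apply_one_ne_zero) h5).symm
  refine ⟨charKer a, ha.irrh.isCharacter.charKer_normal, h6, fun h7 => h2 (β.2.mem_charKer.2 ?_)⟩
  exact mul_left_cancel₀ hε0 (by rw [← h3, ← h4]; exact apply_mul_of_mem_charKer h7 x)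

theorem glaub [Finite G] {O U : Subgroup G} [O.Normal] {x : G}
    (hcop : (Nat.card O).Coprime (orderOf x)) (hodd : Odd (orderOf x))
    (hU : U ≤ O ⊓ centralizer {x}) (hn : O ⊓ centralizer {x} ≤ normalizer (U : Set G))
    (h : ∀ g, ∃ s ∈ U, ∃ k ∈ O, x * (g * x * g⁻¹) = k * (x * x * s) * k⁻¹) {c : G}
    (hc : c ∈ O ⊓ centralizer {x}) (hcU : c ∉ U) :
    ∃ K : Subgroup G, O ≤ normalizer (K : Set G) ∧ x ∈ K ∧ c ∉ K := by
  let x' : (O ⊔ zpowers x : Subgroup G) := ⟨x, mem_sup_right (mem_zpowers x)⟩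
  have hC : ∀ a : (O ⊔ zpowers x : Subgroup G), a ∈ centralizer {x'} ↔ (a : G) ∈ centralizer {x} :=
    fun a => by rw [mem_centralizer_singleton_iff, mem_centralizer_singleton_iff, Subtype.ext_iff]; rfl
  obtain ⟨K, h1, h2, h3⟩ := glaub_top (O := O.subgroupOf (O ⊔ zpowers x))
    (U := U.subgroupOf (O ⊔ zpowers x)) (x := x')
    (by
      refine map_injective (O ⊔ zpowers x).subtype_injective ?_
      rw [Subgroup.map_sup, MonoidHom.map_zpowers, map_subgroupOf_eq_of_le le_sup_left,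
        ← MonoidHom.range_eq_map, range_subtype]
      rfl)
    (by rwa [Nat.card_congr (subgroupOfEquivOfLe le_sup_left).toEquiv, orderOf_mk])
    (by rwa [orderOf_mk]) (fun a ha => ⟨(hU ha).1, (hC a).2 (hU ha).2⟩)
    (fun a ha => mem_normalizer_of_conj_mem fun b hb =>
      conj_mem_of_mem_normalizer (A := U) (hn ⟨ha.1, (hC a).1 ha.2⟩) hb)
    (fun g => by
      obtain ⟨s, hs, k, hk, e⟩ := h g
      exact ⟨⟨s, mem_sup_left (hU hs).1⟩, hs, ⟨k, mem_sup_left hk⟩, Subtype.ext e⟩)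
    (c := ⟨c, mem_sup_left hc.1⟩) ⟨hc.1, (hC _).2 hc.2⟩ hcU
  refine ⟨K.map (O ⊔ zpowers x).subtype, le_sup_left.trans (le_normalizer_map_subtype _ K),
    mem_map_of_mem _ h2, fun ⟨b, hb, e⟩ => h3 ((Subtype.ext e : b = ⟨c, _⟩) ▸ hb)⟩

end Cfsg.Agent.XC
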