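import Mathlib
import Cfsg.Agent.XC.Char
import Cfsg.Agent.GSz.Odd
import Cfsg.Agent.Ch.Integrality
import Cfsg.Agent.GT.CoprimeBasic

/-! An extremely closed abelian `p`-subgroup, `p` odd, is self-normalizing in its normal
closure. -/

set_option autoImplicit false

namespace Cfsg.Agent.XC

open Cfsg Cfsg.Agent.GT Cfsg.Agent.GT.Tr Cfsg.Agent.GSz Cfsg.Agent.Ch Cfsg.Agent.Blk.PB
  Cfsg.Agent.Blk.PC Subgroup Finset

theorem num {ι : Type*} (B : Finset ι) {o : ι} (ho : o ∈ B) (a m : ι → ℕ) {v : ℕ} {D : ℝ}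
    (ha : ∀ χ ∈ B, 0 < a χ) (hao : a o = 1) (hmo : m o = 1)
    (hb : ∀ χ ∈ B, χ ≠ o → 3 * m χ ≤ 2 * a χ)
    (h1 : ∑ χ ∈ B, ((v : ℝ) * m χ - a χ) * a χ = 0) (h2 : ∑ χ ∈ B, ((v : ℝ) * m χ - a χ) ^ 2 = D)
    (h3 : ∑ χ ∈ B, ((v : ℝ) * m χ - a χ) ^ 3 / a χ = (v - 2) * D) (hv : 3 ≤ v) :
    ∃ ψ ∈ B, v * m ψ < a ψ ∧ v * ((v : ℝ) * m ψ - a ψ) ^ 2 + D * (v - 3) < v * (v - 1) ^ 2 := by
  classical
  set s : ι → ℝ := fun χ => (v : ℝ) * m χ - a χ with hs
  have ha' : ∀ χ ∈ B, (0 : ℝ) < a χ := fun χ h => by exact_mod_cast ha χ h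
  have hv' : (3 : ℝ) ≤ v := by exact_mod_cast hv
  have h4 : v * ∑ χ ∈ B.erase o, s χ ^ 2 * (1 - m χ / a χ) = D := by
    rw [sum_erase _ (by simp [hao, hmo]), mul_sum, sum_congr rfl (g := fun χ =>
      (v - 1) * s χ ^ 2 - s χ ^ 3 / a χ) fun χ h => by
        have := (ha' χ h).ne'
        simp only [hs]; field_simp; ring, sum_sub_distrib, ← mul_sum, h2, h3]
    ring
  have h5 : ∑ χ ∈ B.erase o, s χ ^ 2 = D - (v - 1) ^ 2 := by
    rw [sum_erase_eq_sub ho, h2]; simp only [hs, hao, hmo]; push_cast; ring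
  have h7 : ∑ χ ∈ B.erase o, s χ * a χ = 1 - v := by
    rw [sum_erase_eq_sub ho, h1]; simp only [hs, hao, hmo]; push_cast; ring
  obtain ⟨ψ, hψ, h8⟩ : ∃ ψ ∈ B.erase o, s ψ < 0 := by
    by_contra! h
    have := sum_nonneg fun χ hχ => mul_nonneg (h χ hχ) (Nat.cast_nonneg (a χ))
    linarith
  have h9 := single_le_sum (f := fun χ => s χ ^ 2 * (2 / 3 - m χ / a χ)) (fun χ h => by
    obtain ⟨hne, h⟩ := mem_erase.1 h
    have : (3 * m χ : ℝ) ≤ 2 * a χ := by exact_mod_cast hb χ h hne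
    exact mul_nonneg (sq_nonneg _) (by rw [sub_nonneg, div_le_iff₀ (ha' χ h)]; linarith)) hψ
  rw [sum_congr rfl (g := fun χ => s χ ^ 2 * (1 - m χ / a χ) - 1 / 3 * s χ ^ 2)
    fun χ _ => by ring, sum_sub_distrib, ← mul_sum, h5] at h9
  have hψ' := (mem_erase.1 hψ).2
  have h10 : (v : ℝ) * m ψ < a ψ := sub_neg.1 h8
  have h11 : (m ψ : ℝ) / a ψ < 1 / 3 := by
    rw [div_lt_iff₀ (ha' ψ hψ')]
    nlinarith [(Nat.cast_nonneg (m ψ) : (0 : ℝ) ≤ m ψ)]
  refine ⟨ψ, hψ', by exact_mod_cast h10, ?_⟩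
  have h12 : s ψ ^ 2 * (1 / 3) < s ψ ^ 2 * (2 / 3 - m ψ / a ψ) :=
    mul_lt_mul_of_pos_left (by linarith) (by nlinarith)
  have h13 := mul_lt_mul_of_pos_left (h12.trans_le h9) (by linarith : (0 : ℝ) < v)
  rw [mul_sub, h4] at h13
  change v * s ψ ^ 2 + _ < _
  linarith

variable {G : Type*} [Group G] {p : ℕ} [Fact p.Prime] {H : Subgroup G} {M : Ideal AlgInt}

/-- The inductive information on centralizers. -/
def Loc (H : Subgroup G) : Prop :=
  ∀ u ∈ H, u ≠ 1 → ncl (centralizer {u}) H ⊓ normalizer (H : Set G) ≤ H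

theorem EC.pelt [Finite G] (h : EC p H) {u : G} (hu : u ∈ H) : ∃ k, orderOf u = p ^ k := by
  obtain ⟨k, hk⟩ := (IsPGroup.iff_orderOf.1 h.pg) ⟨u, hu⟩
  exact ⟨k, by rwa [orderOf_mk] at hk⟩

omit [Fact p.Prime] in
theorem EC.le_cent (h : EC p H) {u : G} (hu : u ∈ H) : H ≤ centralizer {u} := fun a ha =>
  mem_centralizer_singleton_iff.2 (h.comm a ha u hu)

theorem EC.apply_prod [Finite G] (h : EC p H) (hl : Loc H) (hM : IsPModular p M) (g : G) :
    ∃ n ∈ normalizer (H : Set G), ∀ x ∈ H, ∀ y ∈ H,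
      (x * (n * y * n⁻¹) = 1 → ¬ p ∣ orderOf (x * (g * y * g⁻¹))) ∧
      (x * (n * y * n⁻¹) ≠ 1 → ∀ χ ∈ pb M G,
        (χ : G → ℂ) (x * (g * y * g⁻¹)) = (χ : G → ℂ) (x * (n * y * n⁻¹))) := by
  obtain ⟨n, hn, h1⟩ := h.prod g
  refine ⟨n, hn, fun x hx y hy => ?_⟩
  obtain ⟨k, -, s, hs, hs', e⟩ := h1 x hx y hy
  have hu := mul_mem hx (conj_mem_of_mem_normalizer hn hy)
  refine ⟨fun h2 => ?_, fun h2 χ hχ => ?_⟩
  · rw [e, h2, one_mul, ← MulAut.conj_apply, MulEquiv.orderOf_eq]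
    exact (Nat.Prime.coprime_iff_not_dvd Fact.out).1 hs'.symm
  · rw [e, χ.isClassFunction]
    exact apply_mul_core hM Fact.out (h.pelt hu) (pPrimeCoreOf_le_pPrimeCoreOf
      (ncl_le (h.le_cent hu)) (le_normalizer_ncl _ _)
      (h.mem_core (le_ncl _ _) (hl _ hu h2) hs hs')) hχ

theorem EC.sq_ne [Finite G] (h : EC p H) (hp : p ≠ 2) {x : G} (hx : x ∈ H) (h1 : x ≠ 1) :
    Odd (orderOf x) ∧ x * x ≠ 1 := by
  obtain ⟨k, hk⟩ := h.pelt hx
  have h2 : Odd (orderOf x) := hk ▸ ((Fact.out : p.Prime).odd_of_ne_two hp).pow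
  exact ⟨h2, fun e => h1 (orderOf_eq_one_iff.1 (Nat.eq_one_of_dvd_coprimes h2.coprime_two_right
    dvd_rfl (orderOf_dvd_of_pow_eq_one ((sq x).trans e))))⟩

theorem EC.not_dvd_commutator [Finite G] (h : EC p H) (hp : p ≠ 2) (hl : Loc H)
    (ht : normalClosure (H : Set G) = ⊤)
    (hN : normalizer (H : Set G) ≤ centralizer (H : Set G)) : ¬ p ∣ Nat.card (commutator G) := by
  have := Fintype.ofFinite G
  have hpp : p.Prime := Fact.out
  obtain ⟨M, hM⟩ := Blk.exists_isPModular hpp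
  obtain ⟨P, hP⟩ := h.pg.exists_le_sylow
  have hPN : (P : Subgroup G) ≤ normalizer (H : Set G) := fun y hy =>
    mem_normalizer_of_conj_mem (map_conj_le_iff.1 (le_sup_right.trans (le_of_sylowIn_le
      (sn_syl h.pg le_sup_left (h.sn y)) (P.isPGroup'.to_le (sup_le hP (cj_le hP hy)))
      le_sup_left le_rfl)))
  have key : ∀ χ ∈ pb M G, commutator G ≤ charKer (χ : G → ℂ) := fun χ hχ => by
    have h1 : ∀ x ∈ H, ∀ y ∈ H, x * y ≠ 1 →
        (χ : G → ℂ) 1 * (χ : G → ℂ) (x * y) = (χ : G → ℂ) x * (χ : G → ℂ) y :=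
      fun x hx y hy hxy => apply_sq χ fun g => by
        obtain ⟨n, hn, h2⟩ := h.apply_prod hl hM g
        have h3 := (h2 x hx y hy).2
        rw [← mem_centralizer_iff.1 (hN hn) y hy, mul_inv_cancel_right] at h3
        exact h3 hxy χ hχ
    have h2 : H ≤ charCenter (χ : G → ℂ) := fun x hx => by
      by_cases hx1 : x = 1
      · exact hx1 ▸ one_mem _
      have h3 := h1 x hx x hx (h.sq_ne hp hx hx1).2
      have h4 := h1 _ (mul_mem hx hx) _ (inv_mem hx) (by simpa using hx1)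
      have h5 := apply_ne_zero hM (mem_pb.1 hχ) (z := x) fun e => P.not_dvd_index (e.trans
        (index_dvd_of_le ((hPN.trans hN).trans (centralizer_le (Set.singleton_subset_iff.2 hx)))))
      rw [mul_inv_cancel_right, χ.isCharacter.apply_inv] at h4
      have h6 : (χ : G → ℂ) x * (starRingEnd ℂ) ((χ : G → ℂ) x) = (χ : G → ℂ) 1 * (χ : G → ℂ) 1 :=
        mul_left_cancel₀ h5 (by
          linear_combination χ.1 1 * h4.symm + (starRingEnd ℂ) (χ.1 x) * h3.symm)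
      have h7 := congrArg norm h6
      rw [norm_mul, norm_mul, Complex.norm_conj] at h7
      exact χ.isCharacter.mem_charCenter_iff_norm.2
        ((mul_self_inj (norm_nonneg _) (norm_nonneg _)).1 h7)
    have := χ.isCharacter.charCenter_normal
    exact commutator_le.2 fun a _ b _ => χ.isCharacter.commutator_mem_charKer
      (ht.ge.trans (normalClosure_le_normal h2) (mem_top a)) b
  intro hd
  obtain ⟨u, hu⟩ := exists_prime_orderOf_dvd_card' p hd
  have h1 := sum_mul_eq_zero_of_regular hM (g := 1) (h := (u : G))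
    (by simpa using hpp.one_lt.ne') (by rw [orderOf_coe, hu])
  rw [sum_congr rfl fun χ hχ => by rw [apply_eq_of_mem_charKer (key χ hχ u.2)], ← coe_lam] at h1
  have h2 := card_le_lam hM (IsPGroup.of_bot (G := G))
  rw [card_bot, Nat.cast_eq_zero.1 h1] at h2
  omega

theorem EC.final [Finite G] (h : EC p H) (hp : p ≠ 2) {O : Subgroup G} [O.Normal]
    (hO : ¬ p ∣ Nat.card O) (htop : O ⊔ H = ⊤) {x : G} (hx : x ∈ H) (hx1 : x ≠ 1)
    (hl : ncl (centralizer {x}) H ⊓ normalizer (H : Set G) ≤ H)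
    (hq : normalizer (H : Set G) ≤ H ⊔ ⁅(⊤ : Subgroup G), zpowers x⁆) :
    normalizer (H : Set G) ≤ H := by
  have hOH := inf_eq_bot_of_isPGroup_of_not_dvd h.pg hO
  have hg : ∀ g : G, ∃ o ∈ O, ∃ y ∈ H, o * y = g := fun g =>
    (mem_sup_of_normal_left).1 (htop.ge (mem_top g))
  have hO' : ∀ k : G, (orderOf k).Coprime p → k ∈ O := fun k hk => by
    refine Tr.pResidual_le_of_isPGroup_quotient (h.pg.of_surjective
      ((QuotientGroup.mk' O).comp H.subtype) fun g => ?_) (Tr.mem_pResidual hk)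
    obtain ⟨g, rfl⟩ := QuotientGroup.mk'_surjective O g
    obtain ⟨o, ho, y, hy, rfl⟩ := hg g
    exact ⟨⟨y, hy⟩, by simp [(QuotientGroup.eq_one_iff o).2 ho]⟩
  have hC : ∀ o ∈ O, o ∈ normalizer (H : Set G) → ∀ y ∈ H, o * y = y * o := fun o ho hn y hy => by
    have : o * y * o⁻¹ * y⁻¹ = 1 := mem_bot.1 (hOH.le (Subgroup.mem_inf.2
      ⟨mul_mem (conj_mem_of_mem_normalizer hn hy) (inv_mem hy), by
        simpa only [mul_assoc] using mul_mem ho (Normal.conj_mem ‹_› _ (inv_mem ho) y)⟩))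
    rwa [mul_inv_eq_one, mul_inv_eq_iff_eq_mul] at this
  have hNo : ∀ o y, y ∈ H → o * y ∈ normalizer (H : Set G) → o ∈ normalizer (H : Set G) :=
    fun o y hy hn => (Subgroup.mul_mem_cancel_right _ (le_normalizer hy)).1 hn
  have hcomm : ∀ K : Subgroup G, (∀ o ∈ O, ∀ y ∈ zpowers x, o * y * o⁻¹ * y⁻¹ ∈ K) →
      ⁅(⊤ : Subgroup G), zpowers x⁆ ≤ K := fun K hK => commutator_le.2 fun g _ y hy => by
    obtain ⟨o, ho, z, hz, rfl⟩ := hg g
    have := hK o ho y hy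
    rwa [commutatorElement_def, mul_assoc o, h.comm z hz y (zpowers_le.2 hx hy), mul_inv_rev,
      ← mul_assoc, ← mul_assoc, mul_inv_cancel_right]
  have hNO := hcomm O fun o ho y _ => by
    simpa only [mul_assoc] using mul_mem ho (Normal.conj_mem ‹_› _ (inv_mem ho) y)
  intro n hn
  obtain ⟨c, hc, y, hy, rfl⟩ := hg n
  have hcN := hNo c y hy hn
  refine mul_mem ?_ hy
  obtain ⟨z, hz, w, hw, rfl⟩ := (PG.mem_sup_of_le_normalizer'
    (le_top.trans (normalizer_commutator_ge_left _ _))).1 (hq hcN)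
  rw [mem_bot.1 (hOH.le ⟨hz, (Subgroup.mul_mem_cancel_right _ (hNO hw)).1 hc⟩), one_mul] at *
  have hY := ncl_le (h.le_cent hx)
  by_contra hwH
  obtain ⟨k, hk⟩ := h.pelt hx
  obtain ⟨K, h1, h2, h3⟩ := glaub (O := O) (U := O ⊓ ncl (centralizer {x}) H) (x := x)
    (hk ▸ ((Nat.Prime.coprime_iff_not_dvd Fact.out).2 hO).symm.pow_right k) (h.sq_ne hp hx hx1).1
    (inf_le_inf_left _ hY) (PG.le_normalizer_inf (by simp [normalizer_eq_top])
      (inf_le_right.trans (le_normalizer_ncl _ _))) (fun g => by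
        obtain ⟨n, hn, h1⟩ := h.prod g
        obtain ⟨k, hk, s, hs, hs', e⟩ := h1 x hx x hx
        obtain ⟨o, ho, y, hy, rfl⟩ := hg n
        have h2 : o * y * x * (o * y)⁻¹ = x := by
          rw [mul_assoc o, h.comm y hy x hx, ← mul_assoc, hC o ho (hNo o y hy hn) x hx]; group
        rw [h2] at hs e
        refine ⟨s, ⟨hO' s hs', ?_⟩, k, hO' k hk, e⟩
        refine (iSup_le fun c => cj_le_ncl ?_ : ncl _ H ≤ _) hs
        have h3 : x ∈ zpowers (x * x) := by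
          rw [← sq]
          exact mem_zpowers_pow_iff.2 (h.sq_ne hp hx hx1).1.coprime_two_left
        obtain ⟨i, hi⟩ := h3
        have h4 := Commute.zpow_right (a := (c : G)) (mem_centralizer_singleton_iff.1 c.2) i
        exact mem_centralizer_singleton_iff.2 (by rwa [show (x * x) ^ i = x from hi] at h4))
    (c := w) ⟨hc, mem_centralizer_singleton_iff.2 (hC w hc hcN x hx)⟩ fun e => hwH (hl ⟨e.2, hcN⟩)
  exact h3 (hcomm K (fun o ho y hy => mul_mem (conj_mem_of_mem_normalizer (h1 ho)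
    (zpowers_le.2 h2 hy)) (inv_mem (zpowers_le.2 h2 hy))) hw)

end Cfsg.Agent.XC
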