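import Mathlib
import Cfsg.Agent.XC.Main

/-! The case where three conjugates generate and the normalizer acts nontrivially. -/

set_option autoImplicit false

namespace Cfsg.Agent.XC

open Cfsg Cfsg.Agent.GT Cfsg.Agent.GT.Tr Cfsg.Agent.GSz Cfsg.Agent.Ch Cfsg.Agent.Blk.PB
  Cfsg.Agent.Blk.PC Subgroup Finset

theorem num2 {v f k D : ℕ} {s : ℝ} (hf : 3 * (1 + f) ≤ v) (hv : 5 ≤ v) (hk : 1 + (k + f) = v)
    (hD : k * (2 * v) + f * v ≤ D) (hs : 1 ≤ s ^ 2) :
    (v : ℝ) * (v - 1) ^ 2 ≤ v * s ^ 2 + D * (v - 3) := by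
  have h1 : (v : ℝ) * (v - 2) ≤ (2 * k + f) * (v - 3) := by
    rcases hv.eq_or_lt with rfl | h
    · obtain rfl : f = 0 := by omega
      obtain rfl : k = 4 := by omega
      norm_num
    · have h2 : (3 * (1 + f) : ℝ) ≤ v := by exact_mod_cast hf
      have h3 : (1 + (k + f) : ℝ) = v := by exact_mod_cast hk
      have h4 : (6 : ℝ) ≤ v := by exact_mod_cast h
      nlinarith
  have h2 : (k * (2 * v) + f * v : ℝ) ≤ D := by exact_mod_cast hD
  have h3 : (5 : ℝ) ≤ v := by exact_mod_cast hv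
  nlinarith [mul_le_mul_of_nonneg_right h2 (by linarith : (0 : ℝ) ≤ v - 3),
    mul_le_mul_of_nonneg_left h1 (by linarith : (0 : ℝ) ≤ v),
    mul_le_mul_of_nonneg_left hs (by linarith : (0 : ℝ) ≤ v)]

variable {G : Type*} [Group G] {p : ℕ} [Fact p.Prime] {H : Subgroup G}

theorem EC.le_centralizer [Finite G] (h : EC p H) (hp : p ≠ 2) (hl : Loc H) {a₁ a₂ : G}
    (hab : H ⊔ cj a₁ H ⊔ cj a₂ H = ⊤) :
    normalizer (H : Set G) ≤ centralizer (H : Set G) := by
  classical
  have := Fintype.ofFinite G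
  have hpp : p.Prime := Fact.out
  obtain ⟨M, hM⟩ := Blk.exists_isPModular hpp
  set F := H ⊓ centralizer (normalizer (H : Set G) : Set G) with hF
  have hF1 : ∀ u ∈ sh H, u ∉ F → ∃ w ∈ sh H, u ≠ w ∧ IsConj u w := fun u hu huF => by
    obtain ⟨h1, h2⟩ := mem_sh.1 hu
    by_contra! h3
    refine huF ⟨h1, mem_centralizer_iff.2 fun n hn => mul_inv_eq_iff_eq_mul.1 (Eq.symm ?_)⟩
    by_contra h4
    exact h3 _ (mem_sh.2 ⟨conj_mem_of_mem_normalizer hn h1, fun e => h2 (conj_eq_one_iff.1 e)⟩)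
      h4 (isConj_iff.2 ⟨n, rfl⟩)
  by_contra hN
  have hFH : F < H := lt_of_le_of_ne inf_le_left fun e => hN (le_centralizer_iff.1 (e.ge.trans
    inf_le_right))
  obtain ⟨j, hj⟩ := IsPGroup.iff_card.1 h.pg
  have hodd : Odd (Nat.card H) := hj ▸ (hpp.odd_of_ne_two hp).pow
  have hf : 3 * Nat.card F ≤ Nat.card H := by
    obtain ⟨r, hr⟩ := card_dvd_of_le hFH.le
    have h1 : r ≠ 1 := fun e => hFH.ne (eq_of_le_of_card_ge hFH.le (by rw [hr, e, mul_one]))
    have h2 := (Nat.odd_mul.1 (hr ▸ hodd)).2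
    rw [hr, mul_comm]
    exact Nat.mul_le_mul_left _ (by obtain ⟨i, rfl⟩ := h2; omega)
  set T := sh H
  have hT : ∀ u ∈ T, ∃ k, orderOf u = p ^ k := fun u hu => h.pelt (mem_sh.1 hu).1
  have hv' : (#T : ℂ) = Nat.card H - 1 := by rw [card_sh H]; push_cast; ring
  have hm : ∀ χ : IrrCharacter G, ∃ m : ℕ, ∑ u : H, (χ : G → ℂ) u = Nat.card H * m := fun χ => by
    obtain ⟨m, hm⟩ := (χ.isCharacter.restrict H).exists_nat_classInner IsCharacter.one
    rw [classInner_one_right, inv_mul_eq_iff_eq_mul₀ (natCard_ne_zero H)] at hm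
    exact ⟨m, hm⟩
  choose m hm using hm
  set a : IrrCharacter G → ℕ := fun χ => charDegree (χ : G → ℂ) with ha
  have ha' : ∀ χ : IrrCharacter G, (a χ : ℂ) = (χ : G → ℂ) 1 := fun χ => χ.2.coe_charDegree
  have hs : ∀ χ : IrrCharacter G, ∑ u ∈ T, (χ : G → ℂ) u = Nat.card H * m χ - a χ := fun χ => by
    rw [← hm, ha', sum_sh]; ring
  set θ : G → ℂ := fun g => ∑ χ ∈ pb M G, (Nat.card H * m χ - a χ : ℂ) * (χ : G → ℂ) g with hθd
  have hθ : ∀ g, θ g = ∑ u ∈ T, ∑ χ ∈ pb M G, (χ : G → ℂ) g * (χ : G → ℂ) u⁻¹ := fun g => by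
    rw [sum_comm]
    refine sum_congr rfl fun χ _ => ?_
    rw [← mul_sum, mul_comm, ← hs]
    congr 1
    exact sum_nbij' (·⁻¹) (·⁻¹) (fun _ => inv_mem_sh) (fun _ => inv_mem_sh) (by simp) (by simp)
      (by simp)
  have hθ0 : ∀ g, ¬ p ∣ orderOf g → θ g = 0 := fun g hg => by
    rw [hθ]
    refine sum_eq_zero fun u hu => sum_mul_eq_zero_of_regular hM hg ?_
    obtain ⟨k, hk⟩ := exists_pow_orderOf h.pg (mem_sh.1 hu).1 (mem_sh.1 hu).2
    rw [orderOf_inv, ← hk]
    exact orderOf_pow_dvd k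
  have hθ00 := hθ0 1 (by simpa using hpp.one_lt.ne')
  set t : G → ℕ := fun u => ∑ w ∈ T with IsConj u w, lam M (centralizer ({w} : Set G)) with ht
  have hθ1 : ∀ u ∈ T, θ u = t u := fun u hu => by
    rw [hθ, ht]
    push_cast
    rw [sum_filter]
    refine sum_congr rfl fun w hw => ?_
    split_ifs with h1
    exacts [sum_mul_inv_of_isConj hM (hT w hw) h1,
      sum_mul_inv_of_not_isConj hM (hT w hw) (hT u hu) h1]
  have hlam : ∀ w ∈ T, Nat.card H ≤ lam M (centralizer ({w} : Set G)) := fun w hw => by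
    rw [← Nat.card_congr (subgroupOfEquivOfLe (h.le_cent (mem_sh.1 hw).1)).toEquiv]
    exact card_le_lam hM h.pg.comap_subtype
  have hD : ∑ u ∈ T, θ u = (∑ u ∈ T, t u : ℕ) := by push_cast; exact sum_congr rfl hθ1
  obtain ⟨ψ, -, h1, h2⟩ := num (pb M G) (one_mem_pb hM) a m (v := Nat.card H)
    (D := (∑ u ∈ T, t u : ℕ)) (fun χ _ => χ.2.charDegree_pos) charDegree_one
    (by
      have := hm (irrOne G)
      simp only [coe_irrOne, sum_const, nsmul_eq_mul, card_univ, ← Nat.card_eq_fintype_card] at this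
      exact_mod_cast (mul_left_cancel₀ (natCard_ne_zero H) this).symm)
    (fun χ _ h1 => three_mul_le χ.2 (fun e => h1 (Subtype.ext e)) hab (hm χ))
    (by
      simp only [hθd, ← ha'] at hθ00
      exact_mod_cast hθ00)
    (by
      have h1 : ∑ χ ∈ pb M G, (Nat.card H * m χ - a χ : ℂ) ^ 2 = (∑ u ∈ T, t u : ℕ) := by
        rw [← hD, sum_comm]
        exact sum_congr rfl fun χ _ => by rw [← mul_sum, hs, sq]
      exact_mod_cast h1)
    (by
      have h1 : ∀ g, ∑ u ∈ T, ∑ y ∈ T, θ (u * (g * y * g⁻¹)) =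
          (Nat.card H - 2) * (∑ u ∈ T, t u : ℕ) := fun g => by
        obtain ⟨n, hn, h1⟩ := h.apply_prod hl hM g
        rw [sum_congr rfl (g := fun u => (∑ u ∈ T, t u : ℕ) - θ u) fun u hu => ?_,
          sum_sub_distrib, sum_const, nsmul_eq_mul, hv', hD]
        · ring
        have hu' := (mem_sh.1 hu).1
        rw [sum_congr rfl (g := fun y => θ (u * (n * y * n⁻¹))) fun y hy => ?_]
        · have h2 := sum_sh H fun y => θ (u * (n * y * n⁻¹))
          rw [Fintype.sum_bijective (fun y : H => (⟨u * (n * y * n⁻¹), mul_mem hu'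
            (conj_mem_of_mem_normalizer hn y.2)⟩ : H)) (Finite.injective_iff_bijective.1
              fun y z e => Subtype.ext (by simpa using e)) _ (fun y : H => θ y) fun _ => rfl,
            sum_sh, hθ00, zero_add, hD] at h2
          rw [h2]
          simp [T]
        obtain ⟨h2, h3⟩ := h1 u hu' y (mem_sh.1 hy).1
        by_cases h4 : u * (n * y * n⁻¹) = 1
        · rw [hθ0 _ (h2 h4), h4, hθ00]
        · exact sum_congr rfl fun χ hχ => by rw [h3 h4 χ hχ]
      have h2 : ∀ χ : IrrCharacter G, ∑ g, ∑ u ∈ T, ∑ y ∈ T, (Nat.card H * m χ - a χ : ℂ) *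
          (χ : G → ℂ) (u * (g * y * g⁻¹)) = Nat.card G * ((Nat.card H * m χ - a χ) ^ 3 / a χ) :=
        fun χ => by
          have h3 : (a χ : ℂ) ≠ 0 := ha' χ ▸ χ.2.apply_one_ne_zero
          refine mul_left_cancel₀ h3 ?_
          simp only [← mul_sum]
          rw [mul_left_comm, sum_comm, mul_sum, sum_congr rfl (g := fun u => ∑ y ∈ T, Nat.card G *
            ((χ : G → ℂ) u * (χ : G → ℂ) y)) fun u _ => ?_]
          · simp only [← mul_sum, ← sum_mul, hs]
            field_simp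
          · rw [sum_comm, mul_sum]
            refine sum_congr rfl fun y _ => ?_
            rw [← Blk.irr_mul_sum_conj, ha']
            simp only [χ.isClassFunction.mul_comm u]
      have h3 : ∑ χ ∈ pb M G, (Nat.card H * m χ - a χ : ℂ) ^ 3 / a χ =
          (Nat.card H - 2) * (∑ u ∈ T, t u : ℕ) := by
        refine mul_left_cancel₀ (natCard_ne_zero G) ?_
        rw [mul_sum, ← sum_congr rfl fun χ _ => h2 χ, sum_comm,
          Nat.card_eq_fintype_card (α := G), ← card_univ, ← nsmul_eq_mul, ← sum_const]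
        refine sum_congr rfl fun g _ => ?_
        rw [← h1 g, sum_comm]
        exact sum_congr rfl fun u _ => sum_comm
      exact_mod_cast h3)
    ((Nat.le_mul_of_pos_right 3 Nat.card_pos).trans hf)
  have h3 : (1 : ℝ) ≤ a ψ - Nat.card H * m ψ := by
    have : (Nat.card H * m ψ + 1 : ℝ) ≤ a ψ := by exact_mod_cast h1
    linarith
  by_cases h5 : 5 ≤ Nat.card H
  · have hsub : sh F ⊆ T := fun u hu => mem_sh.2 ⟨(mem_sh.1 hu).1.1, (mem_sh.1 hu).2⟩
    refine h2.not_ge (num2 (f := #(sh F)) (k := #(T \ sh F)) (card_sh F ▸ hf) h5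
      (by rw [card_sdiff_add_card_eq_card hsub, card_sh]) ?_ (by nlinarith))
    rw [← sum_sdiff hsub]
    refine add_le_add (card_nsmul_le_sum _ _ _ fun u hu => ?_) (card_nsmul_le_sum _ _ _
      fun u hu => (hlam u (hsub hu)).trans (single_le_sum (f := fun w =>
        lam M (centralizer ({w} : Set G))) (fun _ _ => Nat.zero_le _)
        (mem_filter.2 ⟨hsub hu, IsConj.refl u⟩)))
    obtain ⟨hu, hu'⟩ := mem_sdiff.1 hu
    obtain ⟨w, hw, h6, h7⟩ := hF1 u hu fun e => hu' (mem_sh.2 ⟨e, (mem_sh.1 hu).2⟩)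
    refine le_trans ?_ (sum_le_sum_of_subset (s := {u, w}) (insert_subset
      (mem_filter.2 ⟨hu, IsConj.refl u⟩) (singleton_subset_iff.2 (mem_filter.2 ⟨hw, h7⟩))))
    rw [sum_pair h6, two_mul]
    exact add_le_add (hlam u hu) (hlam w hw)
  have h6 : Nat.card H = 3 := by
    have := Nat.card_pos (α := F)
    obtain ⟨i, hi⟩ := hodd
    omega
  obtain ⟨u, hu, hu'⟩ := SetLike.exists_of_lt hFH
  have huT : u ∈ T := mem_sh.2 ⟨hu, fun e => hu' (e ▸ one_mem F)⟩
  obtain ⟨w, hw, h7, h8⟩ := hF1 u huT hu'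
  obtain ⟨c, rfl⟩ := isConj_iff.1 h8
  have h9 := hs ψ
  rw [← eq_of_subset_of_card_le (insert_subset huT (singleton_subset_iff.2 hw)) (by
    have : Nat.card H = 1 + #T := card_sh H
    rw [card_pair h7]
    omega), sum_pair h7, ψ.isClassFunction] at h9
  have h10 : a ψ = Nat.card H * m ψ + 1 := by
    by_contra h10
    have : (Nat.card H * m ψ + 2 : ℝ) ≤ a ψ := by exact_mod_cast (by omega)
    rw [h6] at h2 this
    push_cast at h2 this
    nlinarith
  obtain ⟨z, hz⟩ := integral_exists_int_of_rat (q := -1 / 2) (by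
    convert ψ.isCharacter.isIntegral u
    rw [h10] at h9
    push_cast at h9 ⊢
    linear_combination -h9 / 2)
  have : 2 * z = -1 := by exact_mod_cast (by rw [hz]; norm_num : (2 * z : ℚ) = -1)
  omega

end Cfsg.Agent.XC
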