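import Mathlib
import Cfsg.Agent.XC.Ineq
import Cfsg.Agent.GT.MinNormal

/-! The induction for extremely closed abelian `p`-subgroups, `p` odd. -/

set_option autoImplicit false

namespace Cfsg.Agent.XC

open Cfsg Cfsg.Agent.GT Subgroup

universe u

variable {p : ℕ} [Fact p.Prime]

theorem EC.ncl_inf_of {G : Type*} [Group G] [Finite G] {H : Subgroup G} (h : EC p H)
    (X : Subgroup G) (ih : ∀ K : Subgroup (ncl X H), EC p K →
      normalClosure (K : Set (ncl X H)) = ⊤ → normalizer (K : Set (ncl X H)) ≤ K) :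
    ncl X H ⊓ normalizer (H : Set G) ≤ H := fun g hg =>
  ih _ (h.subgroupOf (le_ncl X H)) (h.normalClosure_ncl X) (x := ⟨g, hg.1⟩)
    (by rw [← subgroupOf_normalizer_eq (le_ncl X H)]; exact hg.2)

theorem EC.normalizer_le (hp : p ≠ 2) (G : Type u) [Group G] [Finite G] :
    ∀ H : Subgroup G, EC p H → normalClosure (H : Set G) = ⊤ → normalizer (H : Set G) ≤ H := by
  refine subgroup_quotient_induction (P := fun G _ _ => ∀ H : Subgroup G, EC p H →
    normalClosure (H : Set G) = ⊤ → normalizer (H : Set G) ≤ H) (fun G _ _ ih1 ih2 H h ht => ?_) G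
  have i1 : ∀ X : Subgroup G, X ≠ ⊤ → H ≤ X → ncl X H ⊓ normalizer (H : Set G) ≤ H :=
    fun X hX hHX => h.ncl_inf_of X (ih1 _ (ne_top_of_le_ne_top hX (ncl_le hHX)))
  have i2 : ∀ N : Subgroup G, N.Normal → N ≠ ⊥ → normalizer (H : Set G) ≤ H ⊔ N := fun N _ hN => by
    have hs := QuotientGroup.mk'_surjective N
    have := ih2 N hN _ (h.map hs) (by rw [coe_map, ← map_normalClosure _ _ hs, ht,
      map_top_of_surjective _ hs])
    rw [← QuotientGroup.ker_mk' N, ← comap_map_eq, ← map_le_iff_le_comap]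
    exact (le_normalizer_map _).trans this
  by_cases hz : ∃ x ∈ H, x ≠ 1 ∧ ⁅(⊤ : Subgroup G), zpowers x⁆ = ⊥
  · obtain ⟨x, hx, hx1, e⟩ := hz
    exact (i2 _ (commutator_top_left_le_iff.1 (e.le.trans bot_le)) (zpowers_ne_bot.2 hx1)).trans
      (sup_le le_rfl (zpowers_le.2 hx))
  push Not at hz
  have hl : Loc H := fun u hu hu1 => i1 _ (fun e => hz u hu hu1
    (commutator_eq_bot_iff_le_centralizer.2 (le_centralizer_iff.1 (zpowers_le.2
      (mem_centralizer_iff.2 fun g _ => mem_centralizer_singleton_iff.1 (e.ge (mem_top g)))))))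
    (h.le_cent hu)
  by_cases h3 : ∃ a b, H ⊔ cj a H ⊔ cj b H = ⊤
  swap
  · push Not at h3
    exact h.of_triple ht fun a b => i1 _ (h3 a b) (le_sup_left.trans le_sup_left)
  obtain ⟨a, b, h3⟩ := h3
  rcases H.bot_or_exists_ne_one with e | ⟨x, hx, hx1⟩
  · subst e
    exact le_top.trans (ht.ge.trans (normalClosure_le_normal subset_rfl))
  have := Normal.of_commutator_le G (le_sup_left : commutator G ≤ commutator G ⊔ H)
  exact h.final hp (h.not_dvd_commutator hp hl ht (h.le_centralizer hp hl h3))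
    (eq_top_iff.2 (ht.ge.trans (normalClosure_le_normal (SetLike.coe_subset_coe.2 le_sup_right))))
    hx hx1 (hl x hx hx1) (i2 _ (normalizer_eq_top_iff.1 (eq_top_iff.2
      (normalizer_commutator_ge_left _ _))) (hz x hx hx1))

theorem EC.ncl_inf {G : Type*} [Group G] [Finite G] {H : Subgroup G} (h : EC p H) (hp : p ≠ 2)
    (X : Subgroup G) : ncl X H ⊓ normalizer (H : Set G) ≤ H :=
  h.ncl_inf_of X (EC.normalizer_le hp _)

end Cfsg.Agent.XC
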